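import Cfsg.Agent.H158.OZ.Fr
import Cfsg.Agent.H631.VZ.DFourB

/-!
# S4842, `PΩ⁺_8(q)`: the dictionary of the torus characters of helper158's model (helper631)

* `hz i t` : the diagonal element `t ^ ⟨z, α_i^∨⟩`; `hh π i : Fˣ →* TSS π`;
* `tco` : `TCo (TypeD.A 2) (TSS π) (nS π) (hh π)`; `dic` : the dictionary;
* `VB_eight` : `V^U = V^B ≠ 0` from elliptic elements of `L_{01}`, `L_{012}`, `L_{013}`.
-/

set_option autoImplicit false
set_option linter.unusedSectionVars false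
set_option linter.unusedSimpArgs false

open Cfsg

namespace Cfsg.Agent.H631.VZ.Eight

open CoxeterSystem Cfsg.Agent.ChevalleyStructure.CoxeterGeom Cfsg.Agent.Tits.Roots
open Cfsg.Agent.Nodes Cfsg.Agent.Nodes.Comb Cfsg.Agent.Nodes.Reps Cfsg.Agent.Nodes.WittRoot Cfsg.Agent.Nodes.BNOf
open Cfsg.Agent.Nodes.RGDLib Cfsg.Agent.Nodes.WittAll Cfsg.Agent.Nodes.WittU Cfsg.Agent.Nodes.WittInst
open Cfsg.Agent.Nodes.StabComb Cfsg.Agent.Nodes.Bruhat Cfsg.Agent.Nodes.LeviDec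
open Cfsg.Agent.Nodes.TypeC (wt ng ng_ng wt_apply)
open Cfsg.Agent.Nodes.TypeD
open Cfsg.Agent.TitsThree Cfsg.Agent.TitsThree.Siegel Cfsg.Agent.TitsThree.WittFrame Cfsg.Agent.TitsThree.WittWeyl
  Cfsg.Agent.TitsThree.WBridge Cfsg.Agent.TitsThree.KSideO
open Cfsg.Agent.LieClassical Cfsg.Agent.LieClassical.OrthCore Cfsg.Agent.LieClassical.OrthTrans
open Cfsg.Agent.LieClassical.OrthForms QuadraticMap
open Cfsg.Agent.H158.OZ Cfsg.Agent.H985.VZ

universe u v

/-! ### exponents -/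

/-- the value of the coroot `α_i^∨` on a signed index -/
def ex (i : Fin 4) (z : Fin 4 × Bool) : ℤ := Cf (n := 2) i (wt z)

theorem ex_eq : ∀ (i : Fin 4) (z : Fin 4 × Bool), ex i z =
    if z = (i, true) then 1 else if z = ng (nx (n := 2) i) then -1 else if z = ng (i, true) then -1 else
      if z = nx (n := 2) i then 1 else 0 := by
  decide +kernel

theorem ex_sg (i j : Fin 4) (z : Fin 4 × Bool) : ex i (sg (n := 2) j z) = ex i z - TypeD.A 2 i j * ex j z := by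
  unfold ex
  rw [wt_sg, sub_eq_add_neg, ← neg_smul, Cf_add, Cf_smul]
  unfold TypeD.A
  ring

theorem ex_val : ∀ i j : Fin 4, ex i (j, true) = (![![1, -1, 0, 0], ![0, 1, -1, 0], ![0, 0, 1, -1], ![0, 0, 1, 1]] :
    Fin 4 → Fin 4 → ℤ) i j := by
  decide +kernel

theorem ex_ng (i : Fin 4) (z : Fin 4 × Bool) : ex i (ng z) = - ex i z := by
  revert i z
  decide +kernel

/-! ### diagonal elements -/

section diag

variable {F : Type u} [Field F]

theorem hX_apply (i : Fin 4) (t : Fˣ) (z : Fin 4 × Bool) :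
    (nX (F8 F) (i, true) (nx (n := 2) i) (t : F) * (WittRGDD.nn (F8 F) i)⁻¹) (bb z) =
      ((t ^ ex i z : Fˣ) : F) • (bb z : V8 F) := by
  have hxy : ((i, true) : Fin 4 × Bool).1 ≠ (nx (n := 2) i).1 := ok_nx (n := 2) i
  have hη : ∀ x, (F8 F).η x = 1 := by
    intro x
    unfold Frame.η
    split_ifs <;> rfl
  have ht : (t : F) ≠ 0 := t.ne_zero
  have hinv : ∀ v w : V8 F, WittRGDD.nn (F8 F) i w = v → (WittRGDD.nn (F8 F) i)⁻¹ v = w := by
    intro v w h
    rw [← h]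
    exact (WittRGDD.nn (F8 F) i).symm_apply_apply w
  have n1 : ∀ t : F, t ≠ 0 → nX (F8 F) (i, true) (nx (n := 2) i) t (bb (i, true)) = -(t⁻¹ • bb (ng (nx (n := 2) i))) :=
    fun t ht => nX_apply_self (F8 F) hxy ht
  have n2 : ∀ t : F, t ≠ 0 → nX (F8 F) (i, true) (nx (n := 2) i) t (bb (ng (nx (n := 2) i))) = t • bb (i, true) :=
    fun t ht => nX_apply_neg (F8 F) hxy ht
  have n3 : ∀ t : F, t ≠ 0 → nX (F8 F) (i, true) (nx (n := 2) i) t (bb (ng (i, true))) = -(t • bb (nx (n := 2) i)) := by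
    intro t ht
    refine (nX_apply_neg' (F8 F) hxy ht).trans ?_
    rw [hη, hη]
    change -(((1 : F)⁻¹ * 1 * 1 * t) • _) = _
    rw [inv_one, one_mul, one_mul, one_mul]
  have n4 : ∀ t : F, t ≠ 0 → nX (F8 F) (i, true) (nx (n := 2) i) t (bb (nx (n := 2) i)) = t⁻¹ • bb (ng (i, true)) := by
    intro t ht
    refine (nX_apply_self' (F8 F) hxy ht).trans ?_
    rw [hη, hη]
    change ((1 : F)⁻¹ * 1 * 1 * t)⁻¹ • _ = _
    rw [inv_one, one_mul, one_mul, one_mul]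
    rfl
  have e1 : ∀ v : V8 F, (nX (F8 F) (i, true) (nx (n := 2) i) (t : F) * (WittRGDD.nn (F8 F) i)⁻¹) v =
      nX (F8 F) (i, true) (nx (n := 2) i) (t : F) ((WittRGDD.nn (F8 F) i)⁻¹ v) := fun _ => rfl
  rw [e1, ex_eq]
  by_cases h1 : z = (i, true)
  · rw [if_pos h1, h1, zpow_one, hinv _ (bb (ng (nx (n := 2) i))) ((n2 1 one_ne_zero).trans (one_smul _ _)), n2 _ ht]
  by_cases h2 : z = ng (nx (n := 2) i)
  · rw [if_neg h1, if_pos h2, h2, hinv _ (-bb (i, true)) (by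
      rw [map_neg]
      exact (congrArg _ (n1 1 one_ne_zero)).trans (by rw [inv_one, one_smul, _root_.neg_neg])), map_neg, n1 _ ht,
      _root_.neg_neg, zpow_neg_one, Units.val_inv_eq_inv_val]
  by_cases h4 : z = ng (i, true)
  · rw [if_neg h1, if_neg h2, if_pos h4, h4, hinv _ (bb (nx (n := 2) i)) ((n4 1 one_ne_zero).trans (by
      rw [inv_one, one_smul])), n4 _ ht, zpow_neg_one, Units.val_inv_eq_inv_val]
  by_cases h5 : z = nx (n := 2) i
  · rw [if_neg h1, if_neg h2, if_neg h4, if_pos h5, h5, hinv _ (-bb (ng (i, true))) (by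
      rw [map_neg]
      exact (congrArg _ (n3 1 one_ne_zero)).trans (by rw [one_smul, _root_.neg_neg])), map_neg, n3 _ ht,
      _root_.neg_neg, zpow_one]
  have hz1 : z.1 ≠ ((i, true) : Fin 4 × Bool).1 := by
    intro h6
    rcases Cfsg.Agent.Nodes.WittRGD.eq_or_ng h6 with h7 | h7
    · exact h1 h7
    · exact h4 h7
  have hz2 : z.1 ≠ (nx (n := 2) i).1 := by
    intro h6
    rcases Cfsg.Agent.Nodes.WittRGD.eq_or_ng h6 with h7 | h7
    · exact h5 h7
    · exact h2 h7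
  rw [if_neg h1, if_neg h2, if_neg h4, if_neg h5, zpow_zero, Units.val_one, one_smul,
    hinv _ (bb z) (nX_apply_of_ne (F8 F) hxy hz1 hz2 1)]
  exact nX_apply_of_ne (F8 F) hxy hz1 hz2 _

/-- the coroot elements -/
noncomputable def hz (i : Fin 4) (t : Fˣ) : E (Q8 F) :=
  ⟨nX (F8 F) (i, true) (nx (n := 2) i) (t : F) * (WittRGDD.nn (F8 F) i)⁻¹,
    mul_mem (WittRGDD.nX_mem (amb_plus 4) _ _ _) (inv_mem (WittRGDD.nn_mem (amb_plus 4) i))⟩

theorem hz_bb (i : Fin 4) (t : Fˣ) (z : Fin 4 × Bool) :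
    (hz i t : V8 F ≃ₗ[F] V8 F) (bb z) = ((t ^ ex i z : Fˣ) : F) • (bb z : V8 F) := hX_apply i t z

theorem ext_E {g k : E (Q8 F)} (h : ∀ x, (g : V8 F ≃ₗ[F] V8 F) (bb x) = (k : V8 F ≃ₗ[F] V8 F) (bb x)) : g = k :=
  Subtype.ext (ext_bb h)

theorem mul_bb (g k : E (Q8 F)) (x : Fin 4 × Bool) :
    ((g * k : E (Q8 F)) : V8 F ≃ₗ[F] V8 F) (bb x) = (g : V8 F ≃ₗ[F] V8 F) ((k : V8 F ≃ₗ[F] V8 F) (bb x)) := rfl

theorem hz_mul (i : Fin 4) (s t : Fˣ) : hz i (s * t) = (hz i s * hz i t : E (Q8 F)) := by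
  refine ext_E fun x => ?_
  rw [mul_bb, hz_bb, hz_bb, map_smul, hz_bb, smul_smul, mul_zpow, Units.val_mul, mul_comm]

theorem hz_one (i : Fin 4) : hz i 1 = (1 : E (Q8 F)) := by
  refine ext_E fun x => ?_
  rw [hz_bb, one_zpow, Units.val_one, one_smul]
  rfl

theorem hz_MS (i : Fin 4) (t : Fˣ) : MS (F8 F) ((hz i t : E (Q8 F)) : V8 F ≃ₗ[F] V8 F) (fun x => x) 1 :=
  ((ms_nX rfl (fun _ => rfl) i t.ne_zero).mul ((ms_nn rfl (fun _ => rfl) i).inv (pm_sg i) (sg_sg i)) (pm_sg i)).congr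
    (fun x => sg_sg i x) (by ring)

end diag

/-! ### the coordinates of the torus -/

section tor

variable {F : Type u} [Field F] {S : Type v} [Group S] (π : E (Q8 F) →* S)

/-- the coroot homomorphisms -/
noncomputable def hh (i : Fin 4) : Fˣ →* TSS π where
  toFun t := ⟨π (hz i t), mem_TSS.2 ⟨_, hz_MS i t, rfl⟩⟩
  map_one' := Subtype.ext ((congrArg π (hz_one i)).trans (map_one π))
  map_mul' s t := Subtype.ext ((congrArg π (hz_mul i s t)).trans (map_mul π _ _))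

theorem hh_coe (i : Fin 4) (t : Fˣ) : ((hh π i t : TSS π) : S) = π (hz i t) := rfl

theorem conj_hz (i j : Fin 4) (x : Fˣ) :
    (⟨WittRGDD.nn (F8 F) j, WittRGDD.nn_mem (amb_plus 4) j⟩ : E (Q8 F)) * hz i x *
      (⟨WittRGDD.nn (F8 F) j, WittRGDD.nn_mem (amb_plus 4) j⟩ : E (Q8 F))⁻¹ = hz i x * hz j (x ^ (-(TypeD.A 2 i j))) := by
  rw [mul_inv_eq_iff_eq_mul]
  refine ext_E fun z => ?_
  rw [mul_bb, mul_bb]
  obtain ⟨l, hl, e⟩ := WittRGDD.mono_nn (Fr := F8 F) j z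
  have e' : WittRGDD.nn (F8 F) j (bb z) = l • bb (sg (n := 2) j z) := e
  change WittRGDD.nn (F8 F) j ((hz i x : V8 F ≃ₗ[F] V8 F) (bb z)) = (hz i x : V8 F ≃ₗ[F] V8 F)
    ((hz j (x ^ (-(TypeD.A 2 i j))) : V8 F ≃ₗ[F] V8 F) (WittRGDD.nn (F8 F) j (bb z)))
  rw [hz_bb, map_smul, e', map_smul, hz_bb, map_smul, map_smul, hz_bb, smul_smul, smul_smul, smul_smul]
  congr 1
  have h1 : x ^ ex i z = (x ^ (-(TypeD.A 2 i j))) ^ ex j (sg (n := 2) j z) * x ^ ex i (sg (n := 2) j z) := by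
    rw [← zpow_mul, ← zpow_add]
    congr 1
    rw [ex_sg i j z, ex_sg j j z]
    have h2 : TypeD.A 2 j j = 2 := (isCartan 2).diag j
    rw [h2]
    ring
  rw [h1, Units.val_mul]
  ring

/-- **the coordinates of the torus** -/
theorem tco : Cfsg.Agent.H650.OZ.TCo (TypeD.A 2) (TSS π) (nS π) (hh π) where
  gen := by
    rw [eq_top_iff]
    rintro ⟨s, hs⟩ -
    obtain ⟨z, ⟨c, hc1, hc2, hc3⟩, rfl⟩ := mem_TSS.1 hs
    rw [one_mul] at hc3
    obtain ⟨r, hr⟩ := hc3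
    have hne : ∀ x, c x ≠ 0 := fun x h0 => by
      have := hc1 x
      rw [h0, zero_mul] at this
      exact zero_ne_one this
    have hprod : ∏ i, c (i, true) ≠ 0 := Finset.prod_ne_zero_iff.2 fun i _ => hne _
    have hr0 : r ≠ 0 := by
      rintro rfl
      rw [zero_mul] at hr
      exact hprod hr
    have hfour : c (0, true) * c (1, true) * c (2, true) * c (3, true) = r * r := by
      rw [← hr]
      exact (Fin.prod_univ_four fun i : Fin 4 => c (i, true)).symm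
    let u0 : Fˣ := Units.mk0 (c (0, true)) (hne _)
    let u1 : Fˣ := Units.mk0 (c (0, true) * c (1, true)) (mul_ne_zero (hne _) (hne _))
    let u2 : Fˣ := Units.mk0 (r * (c (3, true))⁻¹) (mul_ne_zero hr0 (inv_ne_zero (hne _)))
    let u3 : Fˣ := Units.mk0 r hr0
    have hz' : z = hz 0 u0 * hz 1 u1 * hz 2 u2 * hz 3 u3 := by
      refine ext_E fun x => ?_
      have hx : (z : V8 F ≃ₗ[F] V8 F) (bb x) = c x • bb x := hc2 x
      rw [hx, mul_bb, hz_bb, map_smul, mul_bb, hz_bb, map_smul, mul_bb, hz_bb, map_smul, hz_bb, smul_smul, smul_smul,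
        smul_smul]
      congr 1
      have key : ∀ j : Fin 4, c (j, true) = ((u3 ^ ex 3 (j, true) : Fˣ) : F) * ((u2 ^ ex 2 (j, true) : Fˣ) : F) *
          ((u1 ^ ex 1 (j, true) : Fˣ) : F) * ((u0 ^ ex 0 (j, true) : Fˣ) : F) := by
        have h0 := hne (0, true)
        have h1 := hne (1, true)
        have h2 := hne (2, true)
        have h3 := hne (3, true)
        intro j
        rw [ex_val, ex_val, ex_val, ex_val]
        fin_cases j
        · simp [u0, u1, u2, u3]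
        · simp [u0, u1, u2, u3]
          field_simp
        · simp [u0, u1, u2, u3]
          field_simp
          linear_combination hfour
        · simp [u0, u1, u2, u3]
          field_simp
      obtain ⟨j, b⟩ := x
      cases b
      · have h1 : c (j, false) = (c (j, true))⁻¹ := eq_inv_of_mul_eq_one_left (hc1 (j, false))
        have h2 : ((j, false) : Fin 4 × Bool) = ng (j, true) := rfl
        rw [h1, key j, h2, ex_ng, ex_ng, ex_ng, ex_ng, zpow_neg, zpow_neg, zpow_neg, zpow_neg,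
          Units.val_inv_eq_inv_val, Units.val_inv_eq_inv_val, Units.val_inv_eq_inv_val, Units.val_inv_eq_inv_val,
          mul_inv, mul_inv, mul_inv]
      · exact key j
    have hmem : ∀ (i : Fin 4) (t : Fˣ), hh π i t ∈ ⨆ i, (hh π i).range := fun i t =>
      Subgroup.mem_iSup_of_mem i ⟨t, rfl⟩
    have h1 : (⟨π z, hs⟩ : TSS π) = hh π 0 u0 * hh π 1 u1 * hh π 2 u2 * hh π 3 u3 := by
      apply Subtype.ext
      change π z = π (hz 0 u0) * π (hz 1 u1) * π (hz 2 u2) * π (hz 3 u3)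
      rw [← map_mul, ← map_mul, ← map_mul, ← hz']
    rw [h1]
    exact mul_mem (mul_mem (mul_mem (hmem _ _) (hmem _ _)) (hmem _ _)) (hmem _ _)
  conj i j x := by
    rw [← map_zpow]
    change nS π j * π (hz i x) * (nS π j)⁻¹ = π (hz i x) * π (hz j (x ^ (-(TypeD.A 2 i j))))
    rw [← map_mul π (hz i x), ← conj_hz, map_mul, map_mul, map_inv]
    rfl

/-- **the dictionary** -/
theorem dic {W : Type*} [Group W] (cs : CoxeterSystem (TypeD.M 2) W) (hN : NSys (TypeD.M 2) (TSS π) (nS π)) :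
    ∃ f : (TSS π →* ℂˣ) → Fin 4 → (Fˣ →* ℂˣ), Dic hN cs (isCartan 2) f :=
  ⟨_, dic_of_tco (isCartan 2) (tco π)⟩

variable {π}

/-- **`V^U = V^B ≠ 0`** for helper158's model -/
theorem VB_eight [Finite F] [Finite S] (hπ : Function.Surjective π) (hk : π.ker ≤ Subgroup.center (E (Q8 F))) {p : ℕ}
    [Fact p.Prime] [CharP F p] {W : Type*} [Group W] [Finite W] (cs : CoxeterSystem (TypeD.M 2) W)
    {V : Type*} [AddCommGroup V] [Module ℂ V] [FiniteDimensional ℂ V] {ρ : Representation ℂ S V}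
    (hρ : ρ.IsIrreducible) {t t' t'' : S} (ht : Ell cs (isCartan 2) (TSS π) (XS π) {0, 1} t) (hχ : ρ.character t ≠ 0)
    (ht' : Ell cs (isCartan 2) (TSS π) (XS π) {0, 1, 2} t') (hχ' : ρ.character t' ≠ 0)
    (ht'' : Ell cs (isCartan 2) (TSS π) (XS π) {0, 1, 3} t'') (hχ'' : ρ.character t'' ≠ 0) :
    VU cs (isCartan 2) (XS π) ρ ≠ ⊥ ∧ VU cs (isCartan 2) (XS π) ρ = fx ρ (RGD.B cs (isCartan 2) (TSS π) (XS π)) ∧
      ∀ l : TSS π →* ℂˣ, Vl cs (isCartan 2) (TSS π) (XS π) ρ l ≠ ⊥ → l = 1 :=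
  VB_D4 (tco π) (RS (p := p) hk cs) (GGS hπ cs) TSS_comm hρ ht hχ ht' hχ' ht'' hχ''

end tor

end Cfsg.Agent.H631.VZ.Eight
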