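import Mathlib
import Cfsg.Agent.H985.VZ.Fix

/-!
# S4842: the action of `W` on `Hom(Q^∨, B)` (helper631)

* `dact cs h w b`, `dact_simple` : `(s_i b) j = b j * (b i) ^ (-(A j i))`, `dAction : MulAction W (I → B)`;
* `El J b` : the property of the `T`-characters delivered by `exists_fix_J` of helper985;
* `Dic` : a dictionary from the characters of `T` to `I → B`; `Dic.exists_El`.
-/

set_option autoImplicit false
set_option linter.unusedSectionVars false

open Cfsg

namespace Cfsg.Agent.H631.VZ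

open CoxeterSystem Cfsg.Agent.ChevalleyStructure.CoxeterGeom Cfsg.Agent.Tits.Roots Cfsg.Agent.Tits.Core
  Cfsg.Agent.Tits.Exchange Cfsg.Agent.Nodes.Reps Cfsg.Agent.Nodes.BNOf Cfsg.Agent.Nodes.StabComb
  Cfsg.Agent.Nodes.Bruhat Cfsg.Agent.Nodes.OppDec Cfsg.Agent.Nodes.LeviDec Module Cfsg.Agent.H985.VZ

universe u v

/-- the dual Cartan matrix -/
theorem isCartan_tr {I : Type*} {M : CoxeterMatrix I} {A : I → I → ℤ} (h : IsCartan M A) :
    IsCartan M (fun i j => A j i) := by
  refine ⟨h.diag, fun i j hij => ?_⟩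
  rcases h.rel i j hij with ⟨h1, h2, h3⟩ | ⟨h1, h2, h3⟩ | ⟨h1, h2⟩ | ⟨h1, h2⟩
  · exact Or.inl ⟨h1, h3, h2⟩
  · exact Or.inr (Or.inl ⟨h1, h3, h2⟩)
  · refine Or.inr (Or.inr (Or.inl ⟨h1, ?_⟩))
    rcases h2 with ⟨h3, h4⟩ | ⟨h3, h4⟩
    · exact Or.inr ⟨h4, h3⟩
    · exact Or.inl ⟨h4, h3⟩
  · refine Or.inr (Or.inr (Or.inr ⟨h1, ?_⟩))
    rcases h2 with ⟨h3, h4⟩ | ⟨h3, h4⟩
    · exact Or.inr ⟨h4, h3⟩
    · exact Or.inl ⟨h4, h3⟩

section act

variable {I W B : Type*} [Fintype I] [DecidableEq I] [Group W] [CommGroup B] {M : CoxeterMatrix I}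

/-- the value of `b` on a vector of the coroot lattice -/
def pr (b : I → B) (y : I → ℤ) : B := ∏ k, b k ^ y k

theorem pr_add (b : I → B) (x y : I → ℤ) : pr b (x + y) = pr b x * pr b y := by
  unfold pr
  rw [← Finset.prod_mul_distrib]
  exact Finset.prod_congr rfl fun k _ => by rw [Pi.add_apply, zpow_add]

theorem pr_zero (b : I → B) : pr b (0 : I → ℤ) = 1 := by
  unfold pr
  exact Finset.prod_eq_one fun k _ => by rw [Pi.zero_apply, zpow_zero]

theorem pr_smul (b : I → B) (c : ℤ) (x : I → ℤ) : pr b (c • x) = pr b x ^ c := by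
  unfold pr
  rw [← Finset.prod_zpow]
  exact Finset.prod_congr rfl fun k _ => by rw [Pi.smul_apply, smul_eq_mul, mul_comm, zpow_mul]

theorem pr_sr (b : I → B) (i : I) : pr b (sr i) = b i := by
  unfold pr
  rw [Finset.prod_eq_single i (fun k _ hk => by rw [sr_ne hk, zpow_zero]) (by simp), sr_self, zpow_one]

theorem pr_sum {ι : Type*} (b : I → B) (s : Finset ι) (f : ι → I → ℤ) : pr b (∑ i ∈ s, f i) = ∏ i ∈ s, pr b (f i) := by
  classical
  induction s using Finset.induction_on with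
  | empty => rw [Finset.sum_empty, Finset.prod_empty, pr_zero]
  | insert i s hi ih => rw [Finset.sum_insert hi, Finset.prod_insert hi, pr_add, ih]

variable (cs : CoxeterSystem M W) {A : I → I → ℤ} (h : IsCartan M A)

/-- the action of `W` on `Hom(Q^∨, B)` -/
noncomputable def dact (w : W) (b : I → B) : I → B := fun j => pr b (rep cs (isCartan_tr h) w⁻¹ (sr j))

theorem pr_dact (w : W) (b : I → B) (y : I → ℤ) : pr (dact cs h w b) y = pr b (rep cs (isCartan_tr h) w⁻¹ y) := by
  have e : y = ∑ k, y k • sr k := by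
    funext k
    rw [Finset.sum_apply, Finset.sum_eq_single k (fun b _ hb => by
      rw [Pi.smul_apply, sr_ne hb.symm, smul_zero]) (by simp), Pi.smul_apply, sr_self, smul_eq_mul, mul_one]
  conv_rhs => rw [e, map_sum, pr_sum]
  unfold pr
  refine Finset.prod_congr rfl fun k _ => ?_
  rw [map_smul]
  exact (pr_smul b (y k) _).symm

theorem dact_one (b : I → B) : dact cs h 1 b = b := by
  funext j
  unfold dact
  rw [inv_one, map_one, Module.End.one_apply, pr_sr]

theorem dact_mul (v w : W) (b : I → B) : dact cs h (v * w) b = dact cs h v (dact cs h w b) := by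
  funext j
  change pr b (rep cs (isCartan_tr h) (v * w)⁻¹ (sr j)) = pr (dact cs h w b) (rep cs (isCartan_tr h) v⁻¹ (sr j))
  rw [pr_dact, mul_inv_rev, rep_mul_apply]

/-- the action -/
noncomputable def dAction : MulAction W (I → B) where
  smul := dact cs h
  one_smul := dact_one cs h
  mul_smul := dact_mul cs h

theorem dact_simple (i : I) (b : I → B) : dact cs h (cs.simple i) b = fun j => b j * (b i) ^ (-(A j i)) := by
  funext j
  have h1 : pairing (fun i j => A j i) i (sr j) = A j i := by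
    unfold pairing
    rw [Finset.sum_eq_single j (fun k _ hk => by rw [sr_ne hk, mul_zero]) (by simp), sr_self, mul_one]
  change pr b (rep cs (isCartan_tr h) (cs.simple i)⁻¹ (sr j)) = _
  rw [inv_simple, rep_simple_eq, h1, sub_eq_add_neg, ← neg_smul, pr_add, pr_smul, pr_sr, pr_sr]

/-- the property of the `T`-characters seen by an elliptic element of `L_J` -/
def El (J : Set I) (b : I → B) : Prop :=
  ∀ v ∈ WJ cs J, ∀ K : Set I, K ⊂ J → ∃ w ∈ WJ cs J, w ∉ WJ cs K ∧ dact cs h w (dact cs h v b) = dact cs h v b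

end act

section dic

variable {I W B : Type*} {Y : Type u} [Fintype I] [DecidableEq I] [Group W] [Group Y] [CommGroup B]
  {M : CoxeterMatrix I} {cs : CoxeterSystem M W} {A : I → I → ℤ} {h : IsCartan M A} {p : ℕ} {T : Subgroup Y} {n : I → Y}
  {X : (I → ℤ) → Subgroup Y}

/-- a dictionary between the characters of `T` and `I → B` -/
structure Dic (hN : NSys M T n) (cs : CoxeterSystem M W) (h : IsCartan M A) (f : (T →* ℂˣ) → I → B) : Prop where
  simple : ∀ i l l', Mv cs hN (cs.simple i) l l' → f l' = dact cs h (cs.simple i) (f l)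
  one : ∀ l, f l = 1 → l = 1

variable {hN : NSys M T n} {f : (T →* ℂˣ) → I → B}

theorem Dic.mv (D : Dic hN cs h f) {w : W} : ∀ {l l' : T →* ℂˣ}, Mv cs hN w l l' → f l' = dact cs h w (f l) := by
  obtain ⟨ω, rfl⟩ := cs.wordProd_surjective w
  induction ω with
  | nil =>
    intro l l' hm
    rw [wordProd_nil] at hm ⊢
    rw [dact_one, hm.unique (mv_one l)]
  | cons i ω ih =>
    intro l l' hm
    obtain ⟨l₁, h1⟩ := exists_mv_to (cs := cs) (hN := hN) (cs.wordProd ω) l
    obtain ⟨l₂, h2⟩ := exists_mv_to (cs := cs) (hN := hN) (cs.simple i) l₁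
    have h3 : Mv cs hN (cs.wordProd (i :: ω)) l l₂ := by
      rw [wordProd_cons]
      exact h1.mul h2
    rw [hm.unique h3, D.simple i _ _ h2, ih h1, wordProd_cons, dact_mul]

variable [Finite Y] [Finite W] [Fact p.Prime] {V : Type v} [AddCommGroup V] [Module ℂ V] [FiniteDimensional ℂ V]
  {ρ : Representation ℂ Y V}

theorem Dic.exists_El (R : RGD cs h p T n X) (D : Dic R.nsys cs h f) (hG : GG cs h T X = ⊤)
    (hT : ∀ s ∈ T, ∀ t ∈ T, s * t = t * s) (hρ : ρ.IsIrreducible) (h0 : VU cs h X ρ ≠ ⊥) {J : Set I} {t : Y}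
    (ht : Ell cs h T X J t) (hχ : ρ.character t ≠ 0) : ∃ l : T →* ℂˣ, Vl cs h T X ρ l ≠ ⊥ ∧ El cs h J (f l) := by
  obtain ⟨l, hl, h1⟩ := exists_fix_J R hG hT hρ h0 ht hχ
  refine ⟨l, hl, fun v hv K hK => ?_⟩
  obtain ⟨l', hl'⟩ := exists_mv_to (cs := cs) (hN := R.nsys) v l
  obtain ⟨w, hw, hwK, hm⟩ := h1 v hv l' hl' K hK
  exact ⟨w, hw, hwK, by rw [← D.mv hl', ← D.mv hm]⟩

end dic

end Cfsg.Agent.H631.VZ
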