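import Mathlib
import Cfsg.Agent.H631.VZ.Ell

/-!
# S4842, type `F₄`: `V^U ≠ 0` (helper631)

* `mem_WJ_of_rep_eq` : `x ∈ W_J` fixing `α_a`, `J = {a, b} ∪ C` with `{a, b}` of type `A₂` and `C` orthogonal to it,
  lies in `W_{{a} ∪ C}`;
* `VU_F4` : `V^U ≠ 0` if `χ` does not vanish at an elliptic element of `L_{013}` and at one of `L_{023}`.
-/

set_option autoImplicit false
set_option linter.unusedSectionVars false

open Cfsg

namespace Cfsg.Agent.H631.VZ

open CoxeterSystem Cfsg.Agent.ChevalleyStructure.CoxeterGeom Cfsg.Agent.Tits.Roots Cfsg.Agent.Tits.Core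
  Cfsg.Agent.Tits.Exchange Cfsg.Agent.Nodes.Reps Cfsg.Agent.Nodes.BNOf Cfsg.Agent.Nodes.StabComb
  Cfsg.Agent.Nodes.Bruhat Cfsg.Agent.Nodes.OppDec Cfsg.Agent.Nodes.LeviDec Module Cfsg.Agent.H985.VZ
  Cfsg.Agent.H631.Kaw

universe u v

section comb

variable {I W : Type*} [Fintype I] [DecidableEq I] [Group W] {M : CoxeterMatrix I}
  (cs : CoxeterSystem M W) {A : I → I → ℤ} (h : IsCartan M A)

theorem pairing_sr' (i j : I) : pairing A i (sr j) = A i j := by
  unfold pairing
  rw [Finset.sum_eq_single j (fun k _ hk => by rw [sr_ne hk, mul_zero]) (by simp), sr_self, mul_one]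

theorem ss (i : I) : cs.simple i * cs.simple i = 1 := cs.simple_mul_simple_self i

/-- nodes with `M i j = 2` commute -/
theorem comm_of_two {i j : I} (hij : M i j = 2) : cs.simple i * cs.simple j = cs.simple j * cs.simple i := by
  have h1 := cs.simple_mul_simple_pow i j
  rw [hij, pow_two] at h1
  have h2 : cs.simple i * cs.simple j = (cs.simple i * cs.simple j)⁻¹ := eq_inv_of_mul_eq_one_left h1
  rw [h2, mul_inv_rev, inv_simple, inv_simple]

theorem braid_of_three {i j : I} (hij : M i j = 3) :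
    cs.simple i * cs.simple j * cs.simple i = cs.simple j * cs.simple i * cs.simple j := by
  have h1 := cs.simple_mul_simple_pow i j
  rw [hij, pow_succ, pow_two] at h1
  have h2 : cs.simple i * cs.simple j * cs.simple i =
      (cs.simple j * (cs.simple i * cs.simple j))⁻¹ := by
    refine eq_inv_of_mul_eq_one_left ?_
    calc cs.simple i * cs.simple j * cs.simple i * (cs.simple j * (cs.simple i * cs.simple j))
        = cs.simple i * cs.simple j * (cs.simple i * cs.simple j) * (cs.simple i * cs.simple j) := by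
          simp only [mul_assoc]
      _ = 1 := h1
  rw [h2, mul_inv_rev, mul_inv_rev, inv_simple, inv_simple]

variable {cs h} in
/-- elements of `W_C` commute with the simple reflections orthogonal to `C` -/
theorem comm_WJ {C : Set I} {a : I} (ha : ∀ c ∈ C, M a c = 2) {w : W} (hw : w ∈ WJ cs C) :
    cs.simple a * w = w * cs.simple a := by
  obtain ⟨ω, hω, rfl⟩ := exists_word_of_mem_WJ cs hw
  clear hw
  induction ω with
  | nil => rw [wordProd_nil, one_mul, mul_one]
  | cons i ω ih =>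
    rw [wordProd_cons, ← mul_assoc, comm_of_two cs (ha i (hω i (by simp))), mul_assoc, ih fun j hj => hω j (by simp [hj]),
      mul_assoc]

variable {cs h} in
theorem rep_WJ_sr {C : Set I} {a : I} (haC : a ∉ C) (ha : ∀ c ∈ C, M a c = 2) {w : W} (hw : w ∈ WJ cs C) :
    rep cs h w (sr a) = sr a := by
  obtain ⟨ω, hω, rfl⟩ := exists_word_of_mem_WJ cs hw
  clear hw
  induction ω with
  | nil => rw [wordProd_nil, map_one, Module.End.one_apply]
  | cons i ω ih =>
    have h1 : A i a = 0 := by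
      have h2 : M a i = 2 := ha i (hω i (by simp))
      have h3 : a ≠ i := by
        rintro rfl
        exact haC (hω a (by simp))
      rcases h.rel a i h3 with h4 | h4 | h4 | h4
      · exact h4.2.2
      · omega
      · omega
      · omega
    rw [wordProd_cons, rep_mul_apply, ih fun j hj => hω j (by simp [hj]), rep_simple_eq, pairing_sr', h1, zero_smul,
      sub_zero]

variable {cs h} in
/-- **(Comb)** -/
theorem mem_WJ_of_rep_eq {a b : I} {C : Set I} (hab : M a b = 3) (haC : a ∉ C) (hbC : b ∉ C)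
    (ha : ∀ c ∈ C, M a c = 2) (hb : ∀ c ∈ C, M b c = 2) {x : W} (hx : x ∈ WJ cs (insert a (insert b C)))
    (e : rep cs h x (sr a) = sr a) : x ∈ WJ cs (insert a C) := by
  have hne : a ≠ b := by
    rintro rfl
    rw [M.diagonal] at hab
    omega
  have haa : cs.simple a ∈ WJ cs (insert a C) := simple_mem_WJ cs (Set.mem_insert a C)
  -- the elements of `W_K`
  have key1 : ∀ k ∈ WJ cs (insert a C), ∃ c ∈ WJ cs C, k = c ∨ k = cs.simple a * c := by
    intro k hk
    obtain ⟨ω, hω, rfl⟩ := exists_word_of_mem_WJ cs hk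
    clear hk
    induction ω with
    | nil => exact ⟨1, one_mem _, Or.inl (by rw [wordProd_nil])⟩
    | cons i ω ih =>
      obtain ⟨c, hc, e⟩ := ih fun j hj => hω j (by simp [hj])
      rw [wordProd_cons]
      rcases hω i (by simp) with rfl | hi
      · rcases e with e | e
        · exact ⟨c, hc, Or.inr (by rw [e])⟩
        · exact ⟨c, hc, Or.inl (by rw [e, ← mul_assoc, ss, one_mul])⟩
      · refine ⟨cs.simple i * c, mul_mem (simple_mem_WJ cs hi) hc, ?_⟩
        rcases e with e | e
        · exact Or.inl (by rw [e])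
        · exact Or.inr (by rw [e, ← mul_assoc, ← mul_assoc, comm_of_two cs (ha i hi)])
  have hCK : WJ cs C ≤ WJ cs (insert a C) := WJ_mono cs (Set.subset_insert a C)
  -- the double cosets
  have key2 : ∀ w ∈ WJ cs (insert a (insert b C)), w ∈ WJ cs (insert a C) ∨
      ∃ k ∈ WJ cs (insert a C), ∃ k' ∈ WJ cs (insert a C), w = k * cs.simple b * k' := by
    intro w hw
    obtain ⟨ω, hω, rfl⟩ := exists_word_of_mem_WJ cs hw
    clear hw
    induction ω with
    | nil => exact Or.inl (by rw [wordProd_nil]; exact one_mem _)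
    | cons i ω ih =>
      have ih' := ih fun j hj => hω j (by simp [hj])
      rw [wordProd_cons]
      by_cases hib : i = b
      · subst hib
        rcases ih' with h1 | ⟨k, hk, k', hk', e1⟩
        · exact Or.inr ⟨1, one_mem _, _, h1, by rw [one_mul]⟩
        · obtain ⟨c, hc, e2⟩ := key1 k hk
          rcases e2 with e2 | e2
          · left
            have h1 : cs.simple i * (c * cs.simple i * k') = c * k' := by
              rw [← mul_assoc, ← mul_assoc, comm_WJ hb hc, mul_assoc c, ss, mul_one]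
            rw [e1, e2, h1]
            exact mul_mem (hCK hc) hk'
          · right
            refine ⟨cs.simple a, haa, cs.simple a * (c * k'), mul_mem haa (mul_mem (hCK hc) hk'), ?_⟩
            have h1 : cs.simple i * cs.simple a * cs.simple i = cs.simple a * cs.simple i * cs.simple a :=
              (braid_of_three cs hab).symm
            have h2 : cs.simple i * (cs.simple a * c * cs.simple i * k') =
                cs.simple i * cs.simple a * (c * cs.simple i) * k' := by simp only [mul_assoc]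
            rw [e1, e2, h2, ← comm_WJ hb hc, ← mul_assoc, h1]
            simp only [mul_assoc]
      · have hiK : i ∈ insert a C := by
          rcases hω i (by simp) with h1 | h1 | h1
          · exact Or.inl h1
          · exact absurd h1 hib
          · exact Or.inr h1
        rcases ih' with h1 | ⟨k, hk, k', hk', e1⟩
        · exact Or.inl (mul_mem (simple_mem_WJ cs hiK) h1)
        · exact Or.inr ⟨cs.simple i * k, mul_mem (simple_mem_WJ cs hiK) hk, k', hk', by
            rw [e1, ← mul_assoc, ← mul_assoc]⟩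
  rcases key2 x hx with h1 | ⟨k, hk, k', hk', e1⟩
  · exact h1
  exfalso
  have hbK : b ∉ insert a C := by
    rintro (h1 | h1)
    · exact hne h1.symm
    · exact hbC h1
  have hAab : A b a = -1 := by
    rcases h.rel a b hne with h4 | h4 | h4 | h4
    · omega
    · exact h4.2.2
    · omega
    · omega
  have h2 : rep cs h k' (sr a) = sr a ∨ rep cs h k' (sr a) = - sr a := by
    obtain ⟨c, hc, e2⟩ := key1 k' hk'
    rcases e2 with e2 | e2
    · left
      rw [e2, rep_WJ_sr haC ha hc]
    · right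
      rw [e2, rep_mul_apply, rep_WJ_sr haC ha hc, rep_simple_sr]
  have h3 : rep cs h (cs.simple b) (rep cs h k' (sr a)) = rep cs h k⁻¹ (sr a) := by
    have h4 : rep cs h (k * cs.simple b * k') (sr a) = sr a := by rw [← e1]; exact e
    rw [rep_mul_apply, rep_mul_apply] at h4
    conv_rhs => rw [← h4]
    rw [rep_inv_apply]
  have h4 : rep cs h k⁻¹ (sr a) ∈ RootsJ cs h (insert a C) :=
    RootsJ.act (inv_mem hk) (PosJ_subset _ (sr_mem_PosJ (Set.mem_insert a C)))
  have h5 := h4.2 b hbK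
  rw [← h3, rep_simple_apply_self] at h5
  rcases h2 with h2 | h2
  · rw [h2, pairing_sr', hAab, sr_ne hne.symm] at h5
    omega
  · have h6 : pairing A b (- sr a) = 1 := by
      have h7 : (- sr a : I → ℤ) = (-1 : ℤ) • sr a := by rw [neg_one_smul]
      rw [h7, pairing_smul, pairing_sr', hAab]
      norm_num
    rw [h2, h6, Pi.neg_apply, sr_ne hne.symm] at h5
    omega

variable {cs h} in
/-- roots of different lengths are not conjugate -/
theorem rep_ne_of_form [Fintype W] {i j : I} (hij : form cs h (sr i) (sr i) ≠ form cs h (sr j) (sr j)) (w : W) :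
    rep cs h w (sr i) ≠ sr j := by
  intro e
  apply hij
  rw [← form_rep cs h w (sr i) (sr i), e]

end comb

section F4

variable {W : Type*} {Y : Type u} [Group W] [Finite W] [Group Y] [Finite Y]
  {cs : CoxeterSystem CoxeterMatrix.F₄ W} {A : Fin 4 → Fin 4 → ℤ} {h : IsCartan CoxeterMatrix.F₄ A} {p : ℕ}
  {T : Subgroup Y} {n : Fin 4 → Y} {X : (Fin 4 → ℤ) → Subgroup Y}

variable (cs h) in
theorem form_F4 [Fintype W] : form cs h (sr 0) (sr 0) = form cs h (sr 1) (sr 1) ∧ form cs h (sr 2) (sr 2) = form cs h (sr 3) (sr 3) ∧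
    form cs h (sr 1) (sr 1) ≠ form cs h (sr 2) (sr 2) := by
  have e1 := two_form cs h 1 (sr 0)
  have e1' := two_form cs h 0 (sr 1)
  have e2 := two_form cs h 2 (sr 1)
  have e2' := two_form cs h 1 (sr 2)
  have e3 := two_form cs h 3 (sr 2)
  have e3' := two_form cs h 2 (sr 3)
  rw [pairing_sr'] at e1 e1' e2 e2' e3 e3'
  rw [form_comm cs h (sr 1) (sr 0)] at e1'
  rw [form_comm cs h (sr 2) (sr 1)] at e2'
  rw [form_comm cs h (sr 3) (sr 2)] at e3'
  have p1 := form_pos cs h (sr_ne_zero (I := Fin 4) 1)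
  have p2 := form_pos cs h (sr_ne_zero (I := Fin 4) 2)
  have r01 : A 0 1 = -1 ∧ A 1 0 = -1 := by
    have hM : (CoxeterMatrix.F₄ : CoxeterMatrix (Fin 4)) 0 1 = 3 := rfl
    rcases h.rel 0 1 (by decide) with h4 | h4 | h4 | h4
    · rw [hM] at h4; omega
    · exact h4.2
    · rw [hM] at h4; omega
    · rw [hM] at h4; omega
  have r23 : A 2 3 = -1 ∧ A 3 2 = -1 := by
    have hM : (CoxeterMatrix.F₄ : CoxeterMatrix (Fin 4)) 2 3 = 3 := rfl
    rcases h.rel 2 3 (by decide) with h4 | h4 | h4 | h4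
    · rw [hM] at h4; omega
    · exact h4.2
    · rw [hM] at h4; omega
    · rw [hM] at h4; omega
  have r12 : (A 1 2 = -1 ∧ A 2 1 = -2) ∨ (A 1 2 = -2 ∧ A 2 1 = -1) := by
    have hM : (CoxeterMatrix.F₄ : CoxeterMatrix (Fin 4)) 1 2 = 4 := rfl
    rcases h.rel 1 2 (by decide) with h4 | h4 | h4 | h4
    · rw [hM] at h4; omega
    · rw [hM] at h4; omega
    · exact h4.2
    · rw [hM] at h4; omega
  refine ⟨?_, ?_, ?_⟩
  · rw [r01.2] at e1
    rw [r01.1] at e1'
    linarith
  · rw [r23.1] at e3'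
    rw [r23.2] at e3
    linarith
  · intro h0
    rcases r12 with ⟨a1, a2⟩ | ⟨a1, a2⟩
    · rw [a2] at e2
      rw [a1] at e2'
      linarith
    · rw [a2] at e2
      rw [a1] at e2'
      linarith

variable (cs h) in
theorem rep_ne_F4 {i j : Fin 4} (hij : (i = 0 ∨ i = 1) ∧ (j = 2 ∨ j = 3)) (w : W) :
    rep cs h w (sr i) ≠ sr j ∧ rep cs h w (sr j) ≠ sr i := by
  let _ : Fintype W := Fintype.ofFinite W
  obtain ⟨f1, f2, f3⟩ := form_F4 cs h
  have h1 : form cs h (sr i) (sr i) = form cs h (sr 1) (sr 1) := by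
    rcases hij.1 with rfl | rfl
    · exact f1
    · rfl
  have h2 : form cs h (sr j) (sr j) = form cs h (sr 2) (sr 2) := by
    rcases hij.2 with rfl | rfl
    · rfl
    · exact f2.symm
  exact ⟨rep_ne_of_form (by rw [h1, h2]; exact f3) w, rep_ne_of_form (by rw [h1, h2]; exact f3.symm) w⟩

variable {V : Type v} [AddCommGroup V] [Module ℂ V] {ρ : Representation ℂ Y V}

/-- one half of the argument: `J = {a, b, c}`, `{a, b}` of type `A₂`, `c` orthogonal and of the other length,
`{a', b'}` the other two nodes -/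
theorem half_F4 [FiniteDimensional ℂ V] (R : RGD cs h p T n X) (hG : GG cs h T X = ⊤) (hρ : ρ.IsIrreducible)
    {a b c d : Fin 4} (hab : (CoxeterMatrix.F₄ : CoxeterMatrix (Fin 4)) a b = 3)
    (hac : (CoxeterMatrix.F₄ : CoxeterMatrix (Fin 4)) a c = 2) (hbc : (CoxeterMatrix.F₄ : CoxeterMatrix (Fin 4)) b c = 2)
    (hca : c ≠ a) (hcb : c ≠ b)
    (hno : ∀ i : Fin 4, i = a ∨ i = b → ∀ j : Fin 4, j = c ∨ j = d → ∀ w : W, rep cs h w (sr i) ≠ sr j)
    {t : Y} (ht : Ell cs h T X {a, b, c} t) (hχ : ρ.character t ≠ 0) {e : Fin 4} (he : e = a ∨ e = b)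
    (h' : fx ρ (VJ cs h X {c, d, e}) ≠ ⊥) : fx ρ (VJ cs h X {c}) ≠ ⊥ := by
  obtain ⟨S, hS, hirr, K₀, hK₀, h0, hmin, x, hx, hxK, hxn⟩ := ell_support R ht hχ
  -- both `a` and `b` are impossible
  have h1 : ¬ (a ∈ K₀ ∧ b ∈ K₀) := by
    rintro ⟨ha, hb⟩
    obtain ⟨w, hw⟩ := support_le R hG hρ hirr hK₀ h0 hmin h'
    have key : ∀ i : Fin 4, i = a ∨ i = b → i ∈ K₀ → rep cs h w (sr i) = sr e := by
      intro i hi hiK
      obtain ⟨k', hk', e1⟩ := hw i hiK
      rcases hk' with rfl | rfl | rfl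
      · exact absurd e1 (hno i hi _ (Or.inl rfl) w)
      · exact absurd e1 (hno i hi _ (Or.inr rfl) w)
      · exact e1
    have h2 := key a (Or.inl rfl) ha
    rw [← key b (Or.inr rfl) hb] at h2
    have h3 : a = b := sr_inj (rep_injective_apply cs h w h2)
    subst h3
    rw [CoxeterMatrix.diagonal] at hab
    omega
  -- one of them is impossible
  have one : ∀ i j : Fin 4, (i = a ∧ j = b) ∨ (i = b ∧ j = a) → i ∈ K₀ → j ∉ K₀ → False := by
    intro i j hij hi hj
    have hM : (CoxeterMatrix.F₄ : CoxeterMatrix (Fin 4)) i j = 3 := by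
      rcases hij with ⟨rfl, rfl⟩ | ⟨rfl, rfl⟩
      · exact hab
      · rw [CoxeterMatrix.symmetric]; exact hab
    have hic : (CoxeterMatrix.F₄ : CoxeterMatrix (Fin 4)) i c = 2 := by
      rcases hij with ⟨rfl, rfl⟩ | ⟨rfl, rfl⟩
      · exact hac
      · exact hbc
    have hjc : (CoxeterMatrix.F₄ : CoxeterMatrix (Fin 4)) j c = 2 := by
      rcases hij with ⟨rfl, rfl⟩ | ⟨rfl, rfl⟩
      · exact hbc
      · exact hac
    have hi' : i = a ∨ i = b := by
      rcases hij with ⟨rfl, rfl⟩ | ⟨rfl, rfl⟩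
      · exact Or.inl rfl
      · exact Or.inr rfl
    have hJ : ({a, b, c} : Set (Fin 4)) = insert i (insert j {c}) := by
      rcases hij with ⟨rfl, rfl⟩ | ⟨rfl, rfl⟩
      · rfl
      · exact Set.insert_comm _ _ _
    have hci : i ∉ ({c} : Set (Fin 4)) := by
      rcases hij with ⟨rfl, rfl⟩ | ⟨rfl, rfl⟩
      · exact fun h1 => hca h1.symm
      · exact fun h1 => hcb h1.symm
    have hcj : j ∉ ({c} : Set (Fin 4)) := by
      rcases hij with ⟨rfl, rfl⟩ | ⟨rfl, rfl⟩
      · exact fun h1 => hcb h1.symm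
      · exact fun h1 => hca h1.symm
    have hne : j ≠ i := by
      rintro rfl
      exact hj hi
    have h2 : K₀ ⊆ insert i {c} := by
      intro k hk
      have h3 := hK₀ hk
      rw [hJ] at h3
      rcases h3 with h3 | h3 | h3
      · exact Or.inl h3
      · exact absurd (h3 ▸ hk) hj
      · exact Or.inr h3
    obtain ⟨k', hk', e1⟩ := hxK i hi
    have h4 : rep cs h x (sr i) = sr i := by
      rcases h2 hk' with h3 | h3
      · rw [e1, h3]
      · rw [Set.mem_singleton_iff.1 h3] at e1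
        exact absurd e1 (hno i hi' _ (Or.inl rfl) x)
    rw [hJ] at hx
    have h5 : x ∈ WJ cs (insert i ({c} : Set (Fin 4))) :=
      mem_WJ_of_rep_eq hM hci hcj (fun k hk => by rw [Set.mem_singleton_iff.1 hk]; exact hic)
        (fun k hk => by rw [Set.mem_singleton_iff.1 hk]; exact hjc) hx h4
    refine hxn _ h2 ⟨?_, fun h6 => ?_⟩ h5
    · rw [hJ]
      intro k hk
      rcases hk with hk | hk
      · exact Or.inl hk
      · exact Or.inr (Or.inr hk)
    · have h7 : j ∈ insert i ({c} : Set (Fin 4)) := h6 (by rw [hJ]; exact Or.inr (Or.inl rfl))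
      rcases h7 with h7 | h7
      · exact hne h7
      · exact hcj h7
  have ha : a ∉ K₀ := fun ha => one a b (Or.inl ⟨rfl, rfl⟩) ha fun hb => h1 ⟨ha, hb⟩
  have hb : b ∉ K₀ := fun hb => one b a (Or.inr ⟨rfl, rfl⟩) hb ha
  have h2 : K₀ ⊆ {c} := by
    intro k hk
    rcases hK₀ hk with h3 | h3 | h3
    · exact absurd (h3 ▸ hk) ha
    · exact absurd (h3 ▸ hk) hb
    · exact h3
  intro h3
  apply h0
  rw [eq_bot_iff, ← h3]
  exact le_trans inf_le_right (fx_mono (VJ_anti h2))

/-- **`V^U ≠ 0` in type `F₄`** -/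
theorem VU_F4 [FiniteDimensional ℂ V] (R : RGD cs h p T n X) (hG : GG cs h T X = ⊤) (hρ : ρ.IsIrreducible)
    {t t' : Y} (ht : Ell cs h T X {0, 1, 3} t) (hχ : ρ.character t ≠ 0)
    (ht' : Ell cs h T X {0, 2, 3} t') (hχ' : ρ.character t' ≠ 0) : VU cs h X ρ ≠ ⊥ := by
  have e1 : ({0, 2, 3} : Set (Fin 4)) = {3, 2, 0} := by
    ext i; fin_cases i <;> simp
  have e2 : ({0, 1, 3} : Set (Fin 4)) = {0, 1, 3} := rfl
  have e3 : ({0, 2, 3} : Set (Fin 4)) = {3, 2, 0} := e1
  have e4 : ({0, 1, 3} : Set (Fin 4)) = {0, 1, 3} := rfl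
  have f1 := ht.toFree.fx_ne_bot R hχ
  have f2 := ht'.toFree.fx_ne_bot R hχ'
  have g1 : fx ρ (VJ cs h X {3}) ≠ ⊥ := by
    refine half_F4 R hG hρ (a := 0) (b := 1) (c := 3) (d := 2) rfl rfl rfl (by decide) (by decide) ?_ ht hχ
      (e := 0) (Or.inl rfl) (by rw [← e1]; exact f2)
    intro i hi j hj w
    exact (rep_ne_F4 cs h ⟨hi, hj.symm⟩ w).1
  have g2 : fx ρ (VJ cs h X {0}) ≠ ⊥ := by
    refine half_F4 R hG hρ (a := 3) (b := 2) (c := 0) (d := 1) rfl rfl rfl (by decide) (by decide) ?_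
      (by rw [← e1]; exact ht') hχ' (e := 3) (Or.inl rfl) f1
    intro i hi j hj w
    exact (rep_ne_F4 cs h ⟨hj, hi.symm⟩ w).2
  exact VU_ne_bot R hG hρ (a := 0) (b := 3) (fun w => (rep_ne_F4 cs h ⟨Or.inl rfl, Or.inr rfl⟩ w).1) g2 g1

end F4

end Cfsg.Agent.H631.VZ
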