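import Mathlib
import Cfsg.Agent.H129.TorusChar
import Cfsg.Agent.H631.VZ.Dual

/-!
# S4842: the characters of the torus of a Chevalley group (helper631)

`hh hp j : Kˣ →* T` the coroots, `bl hp l j = l ∘ hh hp j`, `dic : Dic ..`, `K` a finite field.
-/

set_option autoImplicit false
set_option linter.unusedSectionVars false

open Cfsg

namespace Cfsg.Agent.H631.VZ

open CoxeterSystem Cfsg.Agent.ChevalleyStructure.CoxeterGeom Cfsg.Agent.Tits.Roots Cfsg.Agent.Tits.Core
  Cfsg.Agent.Tits.Exchange Cfsg.Agent.Nodes.Reps Cfsg.Agent.Nodes.BNOf Cfsg.Agent.Nodes.StabComb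
  Cfsg.Agent.Nodes.Bruhat Cfsg.Agent.Nodes.OppDec Cfsg.Agent.Nodes.LeviDec Module Cfsg.Agent.H985.VZ
open Cfsg.Lie Cfsg.Lie.ChevalleyDatum
open Cfsg.Agent.ChevalleyStructure Cfsg.Agent.ChevalleyStructure.Elts
  Cfsg.Agent.ChevalleyStructure.CoxeterGeomTypes Cfsg.Agent.ChevalleyStructure.NPerm
open Cfsg.Agent.Nodes Cfsg.Agent.Nodes.RGDChev
open Cfsg.Agent.KFacts.RgdField Cfsg.Agent.KFacts.RgdChevCoord Cfsg.Agent.BpExc.TorCent Cfsg.Agent.BpExc.TorChev
open Cfsg.Agent.GpExc.Field Cfsg.Agent.BpExc.Tow Cfsg.Agent.BpExc.TowChev Cfsg.Agent.BpExc.Fr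
  Cfsg.Agent.BpExc.LangFr Cfsg.Agent.LangThm Cfsg.Agent.BpExc Cfsg.Agent.H129.TorusChar

universe u v

variable {D : ChevalleyDatum} {l : ℕ} {M : CoxeterMatrix (Fin l)} (hp : IsType D l M) {K : Type u} [Field K]

/-- the characters on the coroots -/
theorem cX_hc (j : Fin l) {a : K} (ha : a ≠ 0) (x : Fin l → ℤ) :
    cX hp (hc hp j a) x = a ^ pairing (cartanOf D l) j x := by
  have h1 : IsMC (fun x : Fin l → ℤ => a ^ pairing (cartanOf D l) j x) := by
    refine ⟨?_, fun x y => ?_⟩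
    · have : pairing (cartanOf D l) j (0 : Fin l → ℤ) = 0 := by simp [pairing]
      rw [this, zpow_zero]
    · rw [pairing_add, zpow_add₀ ha]
  refine (isMC_cX hp (hc_mem hp j ha)).ext h1 (fun i => ?_) x
  have h2 : pairing (cartanOf D l) j (sr i) = cartanOf D l j i := by
    unfold pairing
    rw [Finset.sum_eq_single i (fun k _ hk => by rw [sr_ne hk, mul_zero]) (by simp), sr_self, mul_one]
  rw [cX_sr, ← vec_simple hp i, ch_hc hp j ha (simple_lt hp.inList (lt_rank hp i))]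
  change a ^ D.cartan j (D.simple i) = a ^ pairing (cartanOf D l) j (vec D l (D.simple i))
  rw [vec_simple hp i, h2, cartanOf_def]

/-- the coroots -/
noncomputable def hh (hp : IsType D l M) (j : Fin l) : Kˣ →* TT D K where
  toFun a := ⟨hc hp j (a : K), hc_mem hp j a.ne_zero⟩
  map_one' := by
    apply Subtype.ext
    change hc hp j ((1 : Kˣ) : K) = 1
    refine cX_inj hp (hc_mem hp j (Units.ne_zero 1)) (one_mem _) fun i => ?_
    rw [cX_hc hp j (Units.ne_zero 1), cX_one, Units.val_one, one_zpow]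
  map_mul' a b := by
    apply Subtype.ext
    change hc hp j ((a * b : Kˣ) : K) = hc hp j (a : K) * hc hp j (b : K)
    refine cX_inj hp (hc_mem hp j (Units.ne_zero _)) (mul_mem (hc_mem hp j a.ne_zero) (hc_mem hp j b.ne_zero))
      fun i => ?_
    rw [cX_hc hp j (Units.ne_zero _), cX_mul hp (hc_mem hp j a.ne_zero) (hc_mem hp j b.ne_zero),
      cX_hc hp j a.ne_zero, cX_hc hp j b.ne_zero, Units.val_mul, mul_zpow]

theorem cX_hh (j : Fin l) (a : Kˣ) (x : Fin l → ℤ) :
    cX hp ((hh hp j a : TT D K) : ↥(D.group K)) x = (a : K) ^ pairing (cartanOf D l) j x :=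
  cX_hc hp j a.ne_zero x

theorem cX_zpow {t : ↥(D.group K)} (ht : t ∈ TT D K) (m : ℤ) (x : Fin l → ℤ) : cX hp (t ^ m) x = cX hp t x ^ m := by
  have hinv : cX hp t⁻¹ x = (cX hp t x)⁻¹ := by
    refine eq_inv_of_mul_eq_one_left ?_
    rw [← cX_mul hp (inv_mem ht) ht, inv_mul_cancel, cX_one]
  rcases m with m | m
  · rw [Int.ofNat_eq_natCast, zpow_natCast, zpow_natCast, cX_pow hp ht]
  · rw [zpow_negSucc, zpow_negSucc, ← inv_pow, cX_pow hp (inv_mem ht), hinv, inv_pow]

/-- the values of a character of `T` on the coroots -/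
noncomputable def bl (hp : IsType D l M) (f : TT D K →* ℂˣ) : Fin l → (Kˣ →* ℂˣ) := fun j => f.comp (hh hp j)

theorem bl_eq_one {f : TT D K →* ℂˣ} (hf : bl hp f = 1) : f = 1 := by
  ext t
  have key : TT D K ≤ Subgroup.closure {g | ∃ (j : Fin l) (c : K), c ≠ 0 ∧ g = hc hp j c} := TT_le hp
  have h1 : Subgroup.closure {g | ∃ (j : Fin l) (c : K), c ≠ 0 ∧ g = hc hp j c} ≤
      (f.ker).map (TT D K).subtype := by
    rw [Subgroup.closure_le]
    rintro _ ⟨j, c, hc0, rfl⟩
    refine ⟨⟨hc hp j c, hc_mem hp j hc0⟩, ?_, rfl⟩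
    have h2 := congrFun hf j
    have h3 := DFunLike.congr_fun h2 (Units.mk0 c hc0)
    exact h3
  obtain ⟨s, hs, e⟩ := h1 (key t.2)
  have h4 : s = t := Subtype.ext e
  rw [← h4, MonoidHom.one_apply, show f s = 1 from hs]

variable {W : Type*} [Group W] (cs : CoxeterSystem M W)

theorem bl_simple [Finite K] (p : ℕ) [Fact p.Prime] [CharP K p] {hN : NSys M (TT D K) (nc hp K)} (i : Fin l)
    {f f' : TT D K →* ℂˣ} (hm : Mv cs hN (cs.simple i) f f') :
    bl hp f' = dact cs hp.isCartan (cs.simple i) (bl hp f) := by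
  rw [dact_simple]
  funext j
  ext a
  obtain ⟨g, hg⟩ := exists_rp cs hN (cs.simple i)
  have hi : pairing (cartanOf D l) i (sr i) = 2 := by
    unfold pairing
    rw [Finset.sum_eq_single i (fun k _ hk => by rw [sr_ne hk, mul_zero]) (by simp), sr_self, mul_one, hp.isCartan.diag]
  have hj : pairing (cartanOf D l) j (sr i) = cartanOf D l j i := by
    unfold pairing
    rw [Finset.sum_eq_single i (fun k _ hk => by rw [sr_ne hk, mul_zero]) (by simp), sr_self, mul_one]
  have e : ((hh hp j a : TT D K) : ↥(D.group K)) =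
      g * ((hh hp j a * hh hp i a ^ (-(cartanOf D l j i)) : TT D K) : ↥(D.group K)) * g⁻¹ := by
    have ht' : g * ((hh hp j a * hh hp i a ^ (-(cartanOf D l j i)) : TT D K) : ↥(D.group K)) * g⁻¹ ∈ TT D K :=
      (Subgroup.mem_normalizer_iff.1 hg.mem_normalizer _).1 (Subtype.mem _)
    refine cX_inj hp (Subtype.mem _) ht' fun k => ?_
    have hk : (sr k : Fin l → ℤ) = rep cs hp.isCartan (cs.simple i) (rep cs hp.isCartan (cs.simple i) (sr k)) := by
      rw [← rep_mul_apply, simple_mul_simple_self, map_one, Module.End.one_apply]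
    conv_rhs => rw [hk, cX_rp hp cs (fun _ _ => ⟨⊤, inferInstance, Set.subset_univ _⟩) p hg (Subtype.mem _)]
    rw [Subgroup.coe_mul, cX_mul hp (Subtype.mem _) (Subtype.mem _), Subgroup.coe_zpow, cX_zpow hp (Subtype.mem _),
      cX_hh, cX_hh, cX_hh, ← zpow_mul, ← zpow_add₀ a.ne_zero]
    congr 1
    rw [rep_simple_eq, sub_eq_add_neg, ← neg_smul, pairing_add, pairing_smul, pairing_add, pairing_smul, hi, hj]
    ring
  have h1 := hm g hg (hh hp j a) (hh hp j a * hh hp i a ^ (-(cartanOf D l j i))) e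
  have h2 : bl hp f' j a = bl hp f j a * (bl hp f i a) ^ (-(cartanOf D l j i)) := by
    change f' (hh hp j a) = f (hh hp j a) * (f (hh hp i a)) ^ (-(cartanOf D l j i))
    rw [h1, map_mul, map_zpow]
  rw [h2]
  rfl

/-- **the dictionary** -/
theorem dic [Finite K] (p : ℕ) [Fact p.Prime] [CharP K p] (hN : NSys M (TT D K) (nc hp K)) :
    Dic hN cs hp.isCartan (bl hp) :=
  ⟨fun i _ _ hm => bl_simple hp cs p i hm, fun _ hf => bl_eq_one hp hf⟩

end Cfsg.Agent.H631.VZ
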